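import Cfsg.Agent.SmallSimple.TheoremB
import Cfsg.Agent.SmallSimple.TheoremBCor
import Cfsg.Agent.H607.BP.NonSelf
import Cfsg.Agent.MTwelve.SmallDegree
import Cfsg.Agent.S0270
import Cfsg.Agent.H272.Eight.Degs

/-!
# The eighth degree of `PSp₄(4)`, from the principal 17-block (helper272, for S4899)
-/

set_option autoImplicit false
set_option linter.unusedSectionVars false

open Cfsg

namespace Cfsg.Agent.H272.Eight

open Module Cfsg.Agent.Characters

universe u v

/-- An exceptional character of the principal block of a Sylow subgroup of order `p`. -/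
theorem exists_exc {G : Type u} [Group G] [Finite G] (hperf : commutator G = ⊤) {p : ℕ} (hp : p.Prime) (hp3 : 3 ≤ p)
    (hd : p ∣ Nat.card G) (hd2 : ¬ p ^ 2 ∣ Nat.card G)
    (hnc : ∀ x : G, orderOf x = p → ∃ k, 0 < k ∧ k < p ∧ ¬ IsConj x (x ^ k)) :
    ∃ (e : ℕ) (d : ℕ), e ∣ p - 1 ∧ 1 < e ∧ e < p - 1 ∧ d ∈ charDegrees G ∧
      ∃ m : ℕ, (d : ℤ) = e + p * m ∨ (d : ℤ) = - e + p * m := by
  classical
  have : Fact p.Prime := ⟨hp⟩
  let P : Sylow p G := default
  have hP : Nat.card P = p := by
    obtain ⟨k, hk⟩ := (IsPGroup.iff_card (p := p)).1 P.isPGroup'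
    have h1 : p ^ k ∣ Nat.card G := by rw [← hk]; exact Subgroup.card_subgroup_dvd_card _
    have h2 : k < 2 := by
      by_contra h
      exact hd2 ((pow_dvd_pow p (by omega)).trans h1)
    have h3 : k ≠ 0 := by
      rintro rfl
      rw [pow_zero] at hk
      have h4 := P.not_dvd_index
      have h5 := (P : Subgroup G).card_mul_index
      have h6 : Nat.card P * (P : Subgroup G).index = Nat.card G := h5
      rw [hk, one_mul] at h6
      rw [h6] at h4
      exact h4 hd
    have h4 : k = 1 := by omega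
    rw [hk, h4, pow_one]
  obtain ⟨M, hM⟩ := Blocks.ExistsModular.exists_isPModular hp
  obtain ⟨e, he⟩ : ∃ e, (Subgroup.centralizer (P : Set G)).relIndex (Subgroup.normalizer (P : Set G)) = e :=
    ⟨_, rfl⟩
  have hcls := Cfsg.Agent.Blocks.CyclicClasses.card_cls P hP
  have he' : (Subgroup.centralizer ((P : Subgroup G) : Set G)).relIndex
      (Subgroup.normalizer ((P : Subgroup G) : Set G)) = e := he
  rw [he'] at hcls
  obtain ⟨t, ht0, ht⟩ : ∃ t, t = Nat.card (Cfsg.Agent.Blocks.CyclicClasses.Cls P) ∧ e * t = p - 1 :=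
    ⟨_, rfl, by rw [mul_comm]; exact hcls⟩
  have he2 : 2 ≤ e := by
    by_contra h
    have he0 : e ≠ 0 := by
      intro h0
      rw [h0, zero_mul] at ht
      omega
    have he1 : e = 1 := by omega
    have h1 : Subgroup.normalizer (P : Set G) ≤ Subgroup.centralizer (P : Set G) := by
      rw [← Subgroup.relIndex_eq_one, he, he1]
    exact Cfsg.Agent.H607.BP.NonSelf.not_le hperf P hP h1
  have htpos : 0 < t := by
    rcases Nat.eq_zero_or_pos t with h | h
    · rw [h, mul_zero] at ht; omega
    · exact h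
  have ht1 : t ≠ 1 := by
    intro h1
    rw [h1] at ht0
    obtain ⟨hsub, -⟩ := Nat.card_eq_one_iff_unique.1 ht0.symm
    obtain ⟨x, hx, hx1⟩ := Cfsg.Agent.H607.BP.NonSelf.exists_ne_one P hP
    have hox : orderOf x = p := by
      have h2 : orderOf x ∣ p := by
        have := Subgroup.orderOf_dvd_natCard (P : Subgroup G) hx
        rwa [show Nat.card (P : Subgroup G) = p from hP] at this
      rcases (Nat.dvd_prime hp).1 h2 with h3 | h3
      · exact absurd (orderOf_eq_one_iff.1 h3) hx1
      · exact h3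
    obtain ⟨k, hk0, hk, hkc⟩ := hnc x hox
    apply hkc
    have hxk : x ^ k ≠ 1 := by
      intro h
      have h2 := orderOf_dvd_of_pow_eq_one h
      rw [hox] at h2
      exact absurd (Nat.le_of_dvd hk0 h2) (by omega)
    have h2 := congrArg Subtype.val (hsub.elim (⟨ConjClasses.mk x, x, hx, hx1, rfl⟩ : Cfsg.Agent.Blocks.CyclicClasses.Cls P)
      ⟨ConjClasses.mk (x ^ k), x ^ k, pow_mem hx k, hxk, rfl⟩)
    exact ConjClasses.mk_eq_mk_iff_isConj.1 h2
  obtain ⟨NE, X, ε, d, S, hB, h1, h2, h3, h4, h5, ⟨χ₁, h6, h6', h6''⟩, h7, h8, h9, h10⟩ :=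
    Cfsg.Agent.SmallSimple.TheoremB.theoremB p (by omega) M hM P hP e t he ht
  obtain ⟨Θ, hΘ⟩ : X.Nonempty := by
    rw [← Finset.card_pos, h3]
    exact htpos
  have hone : ¬ p ∣ orderOf (1 : G) := by
    rw [orderOf_one]; exact fun h => hp.one_lt.ne' (Nat.dvd_one.1 h)
  obtain ⟨h11, h12, h13⟩ := h8 Θ hΘ
  obtain ⟨m, hm⟩ := Cfsg.Agent.SmallSimple.TheoremBCor.degree_exc hP (Core.isIrr_isCharacter Θ.2) h12 (by
    intro x hx
    have := h13 x hx 1 (one_mem _) hone
    rwa [mul_one] at this)
  obtain ⟨n, hn⟩ := Core.isCharacter_apply_one (Core.isIrr_isCharacter Θ.2)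
  refine ⟨e, n, ⟨t, ht.symm⟩, he2, ?_, ⟨Θ, Blocks.Basic.charDegree_of_eq hn⟩, m, ?_⟩
  · rw [← ht]
    have : 2 ≤ t := by omega
    calc e < e * 2 := by omega
      _ ≤ e * t := Nat.mul_le_mul_left _ this
  · rw [hn, h11] at hm
    rcases h5 with h | h
    · left
      rw [h] at hm
      have : (n : ℂ) = ((e + p * m : ℤ) : ℂ) := by rw [hm]; push_cast; ring
      exact_mod_cast this
    · right
      rw [h] at hm
      have : (n : ℂ) = ((- e + p * m : ℤ) : ℂ) := by rw [hm]; push_cast; ring
      exact_mod_cast this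

/-- In characteristic 2, an element of order 17 of `GL₄` is not conjugate to all its powers. -/
theorem not_all_conj {K : Type u} [Field K] [CharP K 2] {n : Type v} [Fintype n] [DecidableEq n]
    (hn : Fintype.card n = 4) (A : Matrix n n K) (h17 : A ^ 17 = 1) (h1 : A ≠ 1)
    (hc : ∀ k, 0 < k → k < 17 → ∃ U : (Matrix n n K)ˣ, (U : Matrix n n K) * A * ((U⁻¹ : (Matrix n n K)ˣ) : Matrix n n K) = A ^ k) :
    False := by
  classical
  let L := AlgebraicClosure K
  let f : Matrix n n K →+* Matrix n n L := (algebraMap K L).mapMatrix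
  have hfinj : Function.Injective f := by
    intro X Y h
    ext i j
    have h2 := congrFun (congrFun h i) j
    exact (algebraMap K L).injective h2
  set B : Matrix n n L := f A with hB
  have hB17 : B ^ 17 = 1 := by rw [hB, ← map_pow, h17, map_one]
  have hB1 : B ≠ 1 := by
    intro h
    apply h1
    apply hfinj
    rw [map_one]
    exact h
  have hchar : CharP L 2 := charP_of_injective_algebraMap (algebraMap K L).injective 2
  have hnt : Nonempty n := Fintype.card_pos_iff.1 (by omega)
  have hroot : ∀ z : L, z ∈ spectrum L B ↔ z ∈ B.charpoly.roots := by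
    intro z
    rw [Polynomial.mem_roots B.charpoly_monic.ne_zero, Matrix.mem_spectrum_iff_isRoot_charpoly]
  -- an eigenvalue different from `1`
  obtain ⟨z, hz, hz1⟩ : ∃ z ∈ spectrum L B, z ≠ 1 := by
    by_contra hcon
    push Not at hcon
    have h2 : B.charpoly.roots = Multiset.replicate 4 1 := by
      rw [Multiset.eq_replicate]
      refine ⟨?_, fun z hz => hcon z ((hroot z).2 hz)⟩
      rw [← (IsAlgClosed.splits B.charpoly).natDegree_eq_card_roots, Matrix.charpoly_natDegree_eq_dim, hn]
    have h3 : B.charpoly = (Polynomial.X - Polynomial.C 1) ^ 4 := by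
      have h4 := (IsAlgClosed.splits B.charpoly).eq_prod_roots_of_monic B.charpoly_monic
      rw [h4, h2, Multiset.map_replicate, Multiset.prod_replicate]
    have h5 := Matrix.aeval_self_charpoly B
    rw [h3] at h5
    simp only [map_pow, map_sub, Polynomial.aeval_X, map_one] at h5
    have hcm : CharP (Matrix n n L) 2 := inferInstance
    have h6 : (B - 1) ^ 4 = B ^ 4 - 1 := by
      have := sub_pow_char_pow_of_commute (p := 2) (n := 2) (x := B) (y := 1) (Commute.one_right B)
      norm_num at this
      exact this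
    rw [h6] at h5
    have h7 : B ^ 4 = 1 := sub_eq_zero.1 h5
    apply hB1
    calc B = B ^ 17 := by
          have : (17 : ℕ) = 4 * 4 + 1 := rfl
          rw [this, pow_succ, pow_mul, h7, one_pow, one_mul]
      _ = 1 := hB17
  have hz17 : z ^ 17 = 1 := by
    have h2 := spectrum.pow_mem_pow B 17 hz
    rw [hB17, spectrum.one_eq] at h2
    exact h2
  have hzo : orderOf z = 17 := by
    have h2 := orderOf_dvd_of_pow_eq_one hz17
    rcases (Nat.dvd_prime (by norm_num : Nat.Prime 17)).1 h2 with h3 | h3
    · exact absurd (orderOf_eq_one_iff.1 h3) hz1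
    · exact h3
  have hall : ∀ k, 0 < k → k < 17 → z ^ k ∈ B.charpoly.roots := by
    intro k hk0 hk
    rw [← hroot]
    obtain ⟨U, hU⟩ := hc k hk0 hk
    have h2 := spectrum.pow_mem_pow B k hz
    have h3 : B ^ k = (Units.map f.toMonoidHom U : (Matrix n n L)ˣ) * B *
        (((Units.map f.toMonoidHom U)⁻¹ : (Matrix n n L)ˣ) : Matrix n n L) := by
      rw [hB, ← map_pow, ← hU, map_mul, map_mul]
      rfl
    rw [h3, spectrum.units_conjugate] at h2
    exact h2
  have hinj : Set.InjOn (fun k => z ^ k) (Finset.Icc 1 16 : Finset ℕ) := by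
    intro a ha b hb hab
    rw [Finset.mem_coe, Finset.mem_Icc] at ha hb
    exact pow_injOn_Iio_orderOf (by rw [hzo]; exact Set.mem_Iio.2 (by omega)) (by rw [hzo]; exact Set.mem_Iio.2 (by omega)) hab
  have hle : 16 ≤ 4 := by
    calc 16 = ((Finset.Icc 1 16 : Finset ℕ).image (fun k => z ^ k)).card := by
          rw [Finset.card_image_of_injOn hinj]
          rfl
      _ ≤ B.charpoly.roots.toFinset.card := by
          apply Finset.card_le_card
          intro y hy
          rw [Finset.mem_image] at hy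
          obtain ⟨k, hk, rfl⟩ := hy
          rw [Finset.mem_Icc] at hk
          rw [Multiset.mem_toFinset]
          exact hall k (by omega) (by omega)
      _ ≤ B.charpoly.roots.card := Multiset.toFinset_card_le _
      _ ≤ B.charpoly.natDegree := Polynomial.card_roots' _
      _ = 4 := by rw [Matrix.charpoly_natDegree_eq_dim, hn]
  omega

section

variable (K : Type u) [Field K] [Finite K]

/-- The eighth degree of `PSp₄(4)`. -/
theorem deg_sev (hq : Nat.card K = 4) : ∃ (e d : ℕ), (e = 2 ∨ e = 4 ∨ e = 8) ∧ d ∈ charDegrees (PSp 2 K) ∧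
    ∃ m : ℕ, (d : ℤ) = e + 17 * m ∨ (d : ℤ) = - e + 17 * m := by
  classical
  have hfin' : Finite (PSp 2 K) := by unfold PSp; infer_instance
  let _ := Fintype.ofFinite K
  have h2K : (2 : K) = 0 := by
    have h1 : ((Nat.card K : ℕ) : K) = 0 := by
      rw [Nat.card_eq_fintype_card]
      exact FiniteField.cast_card_eq_zero K
    rw [hq] at h1
    push_cast at h1
    have h2 : (2 : K) * 2 = 0 := by linear_combination h1
    rcases mul_eq_zero.1 h2 with h | h <;> exact h
  have hchar : CharP K 2 := CharTwo.of_one_ne_zero_of_two_eq_zero one_ne_zero h2K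
  have hcard : Nat.card (PSp 2 K) = 979200 := by
    have h1 := card_eq K
    rw [hq] at h1
    generalize Nat.card (PSp 2 K) = N at h1 ⊢
    norm_num at h1
    exact h1
  have hsimple : IsSimpleGroup (PSp 2 K) := S0270.result 2 le_rfl (fun _ => by
    rw [← Nat.card_eq_fintype_card, hq]
    norm_num)
  have hperf : commutator (PSp 2 K) = ⊤ := MTwelve.SmallDegree.commutator_eq_top_of_card (by
    rw [hcard]
    norm_num)
  have hcen : ∀ z ∈ Subgroup.center (Matrix.symplecticGroup (Fin 2) K), z = 1 := by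
    intro z hz
    have hneg : (-1 : Matrix (Fin 2 ⊕ Fin 2) (Fin 2 ⊕ Fin 2) K) = 1 := by
      ext i j
      rw [Matrix.neg_apply]
      have h3 : ∀ x : K, -x = x := fun x => by linear_combination (-x) * h2K
      exact h3 _
    rcases Cfsg.Agent.ClassicalGeometry.SympInvolutions.center_eq hz with h | h
    · exact Subtype.ext h
    · apply Subtype.ext
      rw [h, hneg]
      rfl
  obtain ⟨e, d, he, he1, he2, hd, m, hm⟩ := exists_exc hperf (p := 17) (by norm_num) (by norm_num)
    (by rw [hcard]; norm_num) (by rw [hcard]; norm_num) (by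
      intro x hx
      by_contra hcon
      push Not at hcon
      obtain ⟨A, rfl⟩ := QuotientGroup.mk_surjective x
      have hA17 : A ^ 17 = 1 := by
        apply hcen
        rw [← QuotientGroup.eq_one_iff, QuotientGroup.mk_pow, ← hx, pow_orderOf_eq_one]
      refine not_all_conj (n := Fin 2 ⊕ Fin 2) (by simp) (A : Matrix (Fin 2 ⊕ Fin 2) (Fin 2 ⊕ Fin 2) K) ?_ ?_ ?_
      · have := congrArg Subtype.val hA17
        exact this
      · intro h
        have h2 : A = 1 := Subtype.ext h
        rw [h2, QuotientGroup.mk_one, orderOf_one] at hx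
        omega
      · intro k hk0 hk
        obtain ⟨c, hc⟩ := isConj_iff.1 (hcon k hk0 hk)
        obtain ⟨C, rfl⟩ := QuotientGroup.mk_surjective c
        have h3 : C * A * C⁻¹ = A ^ k := by
          have h4 : (C * A * C⁻¹)⁻¹ * A ^ k = 1 := by
            apply hcen
            rw [← QuotientGroup.eq]
            exact hc
          exact (inv_mul_eq_one.1 h4)
        refine ⟨⟨C, ((C⁻¹ : Matrix.symplecticGroup (Fin 2) K) : Matrix _ _ K), ?_, ?_⟩, ?_⟩
        · exact congrArg Subtype.val (mul_inv_cancel C)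
        · exact congrArg Subtype.val (inv_mul_cancel C)
        · exact congrArg Subtype.val h3)
  refine ⟨e, d, ?_, hd, m, hm⟩
  have h16 : e ∣ 16 := he
  have h3 : e < 16 := he2
  interval_cases e <;> omega

end

end Cfsg.Agent.H272.Eight
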