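import Cfsg.Agent.H272.Eight.Sev

/-!
# At least eight character degrees of `PSp₄(q)`, `q ≥ 4` (helper272, for S4899)
-/

set_option autoImplicit false
set_option linter.unusedSectionVars false

open Cfsg

namespace Cfsg.Agent.H272.Eight

open Cfsg.Agent.H664.Eight

universe u

theorem eight_odd (K : Type u) [Field K] [Finite K] (hq : 5 ≤ Nat.card K) (h2 : (2 : K) ≠ 0) : Eight (PSp 2 K) := by
  have hfin' : Finite (PSp 2 K) := by unfold PSp; infer_instance
  obtain ⟨hF, hG⟩ := deg_FG K (by omega)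
  have hE := deg_E K (by omega)
  obtain ⟨⟨C, hC, hC'⟩, D, hD, hD'⟩ := deg_CD K
  obtain ⟨w, hw, hw'⟩ := deg_W K h2
  have hSt := deg_St K
  obtain ⟨x, hx⟩ : ∃ x, Nat.card K = x + 5 := ⟨Nat.card K - 5, by omega⟩
  rw [hx] at hF hG hE hC hD hw hSt
  have e1 : 1 < w := by
    have h3 : 25 ≤ (x + 5) ^ 2 := by nlinarith
    omega
  have e2 : w < D := by
    have h3 : 2 * w ≤ (x + 5) ^ 2 + 1 := by omega
    nlinarith
  have e3 : D < C := by nlinarith
  have e4 : C < (x + 5 + 1) * ((x + 5) ^ 2 + 1) := by nlinarith [sq_nonneg x, mul_nonneg (sq_nonneg x) (Nat.zero_le x)]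
  have e5 : (x + 5 + 1) * ((x + 5) ^ 2 + 1) < (x + 5) ^ 4 - 1 := by
    have : (x + 5 + 1) * ((x + 5) ^ 2 + 1) + 1 < (x + 5) ^ 4 := by
      have h : (x + 5) ^ 4 = (x + 5 + 1) * ((x + 5) ^ 2 + 1) + 1 + (x ^ 4 + 19 * x ^ 3 + 134 * x ^ 2 + 414 * x + 468) := by ring
      rw [h]
      omega
    omega
  have e6 : (x + 5) ^ 4 - 1 < (x + 5) ^ 4 := Nat.sub_lt (by positivity) one_pos
  have e7 : (x + 5) ^ 4 < (x + 5 + 1) * ((x + 5) ^ 2 + 1) * (x + 5) := by
    have h : (x + 5 + 1) * ((x + 5) ^ 2 + 1) * (x + 5) = (x + 5) ^ 4 + ((x + 5) ^ 3 + (x + 5) ^ 2 + (x + 5)) := by ring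
    rw [h]
    have : 0 < (x + 5) ^ 3 + (x + 5) ^ 2 + (x + 5) := by positivity
    omega
  refine eight_of_chain [1, w, D, C, (x + 5 + 1) * ((x + 5) ^ 2 + 1), (x + 5) ^ 4 - 1, (x + 5) ^ 4,
    (x + 5 + 1) * ((x + 5) ^ 2 + 1) * (x + 5)] ?_ le_rfl ?_
  rotate_left
  · intro d hd
    simp only [List.mem_cons, List.not_mem_nil, or_false] at hd
    rcases hd with rfl | rfl | rfl | rfl | rfl | rfl | rfl | rfl
    · exact one_mem
    · exact hw'
    · exact hD'
    · exact hC'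
    · exact hF
    · exact hE
    · exact hSt
    · exact hG
  · rw [← List.isChain_iff_pairwise]
    simp only [List.isChain_cons_cons, List.isChain_singleton, and_true]
    exact ⟨e1, e2, e3, e4, e5, e6, e7⟩

theorem eight_even (K : Type u) [Field K] [Finite K] (hq : 8 ≤ Nat.card K) (h2 : (2 : K) = 0) : Eight (PSp 2 K) := by
  have hfin' : Finite (PSp 2 K) := by unfold PSp; infer_instance
  obtain ⟨hF, hG⟩ := deg_FG K (by omega)
  have hE := deg_E K (by omega)
  obtain ⟨⟨C, hC, hC'⟩, D, hD, hD'⟩ := deg_CD K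
  have hM := deg_M K hq h2
  have hSt := deg_St K
  obtain ⟨x, hx⟩ : ∃ x, Nat.card K = x + 5 := ⟨Nat.card K - 5, by omega⟩
  rw [hx] at hF hG hE hC hD hM hSt
  have e2 : 1 < D := by nlinarith
  have e3 : D < C := by nlinarith
  have e4 : C < (x + 5 + 1) * ((x + 5) ^ 2 + 1) := by nlinarith [sq_nonneg x, mul_nonneg (sq_nonneg x) (Nat.zero_le x)]
  have e5 : (x + 5 + 1) * ((x + 5) ^ 2 + 1) < (x + 5) ^ 4 - 1 := by
    have : (x + 5 + 1) * ((x + 5) ^ 2 + 1) + 1 < (x + 5) ^ 4 := by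
      have h : (x + 5) ^ 4 = (x + 5 + 1) * ((x + 5) ^ 2 + 1) + 1 + (x ^ 4 + 19 * x ^ 3 + 134 * x ^ 2 + 414 * x + 468) := by ring
      rw [h]
      omega
    omega
  have e6 : (x + 5) ^ 4 - 1 < (x + 5) ^ 4 := Nat.sub_lt (by positivity) one_pos
  have e7 : (x + 5) ^ 4 < (x + 5 + 1) * ((x + 5) ^ 2 + 1) * (x + 5) := by
    have h : (x + 5 + 1) * ((x + 5) ^ 2 + 1) * (x + 5) = (x + 5) ^ 4 + ((x + 5) ^ 3 + (x + 5) ^ 2 + (x + 5)) := by ring
    rw [h]
    have : 0 < (x + 5) ^ 3 + (x + 5) ^ 2 + (x + 5) := by positivity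
    omega
  have e8 : (x + 5 + 1) * ((x + 5) ^ 2 + 1) * (x + 5) < (x + 5 + 1) * ((x + 5 + 1) * ((x + 5) ^ 2 + 1)) := by
    have h : (x + 5 + 1) * ((x + 5 + 1) * ((x + 5) ^ 2 + 1)) =
      (x + 5 + 1) * ((x + 5) ^ 2 + 1) * (x + 5) + (x + 5 + 1) * ((x + 5) ^ 2 + 1) := by ring
    rw [h]
    have : 0 < (x + 5 + 1) * ((x + 5) ^ 2 + 1) := by positivity
    omega
  refine eight_of_chain [1, D, C, (x + 5 + 1) * ((x + 5) ^ 2 + 1), (x + 5) ^ 4 - 1, (x + 5) ^ 4,
    (x + 5 + 1) * ((x + 5) ^ 2 + 1) * (x + 5), (x + 5 + 1) * ((x + 5 + 1) * ((x + 5) ^ 2 + 1))] ?_ le_rfl ?_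
  rotate_left
  · intro d hd
    simp only [List.mem_cons, List.not_mem_nil, or_false] at hd
    rcases hd with rfl | rfl | rfl | rfl | rfl | rfl | rfl | rfl
    · exact one_mem
    · exact hD'
    · exact hC'
    · exact hF
    · exact hE
    · exact hSt
    · exact hG
    · exact hM
  · rw [← List.isChain_iff_pairwise]
    simp only [List.isChain_cons_cons, List.isChain_singleton, and_true]
    exact ⟨e2, e3, e4, e5, e6, e7, e8⟩

theorem eight_four (K : Type u) [Field K] [Finite K] (hq : Nat.card K = 4) : Eight (PSp 2 K) := by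
  have hfin' : Finite (PSp 2 K) := by unfold PSp; infer_instance
  obtain ⟨hF, hG⟩ := deg_FG K (by omega)
  have hE := deg_E K (by omega)
  obtain ⟨⟨C, hC, hC'⟩, D, hD, hD'⟩ := deg_CD K
  have hSt := deg_St K
  obtain ⟨e, d, he, hd, m, hm⟩ := deg_sev K hq
  rw [hq] at hF hG hE hC hD hSt
  norm_num at hF hG hE hC hD hSt
  have hC2 : C = 50 := by omega
  have hD2 : D = 34 := by omega
  subst hC2 hD2
  have hdm : (d : ℤ) % 17 ≠ 0 ∧ (d : ℤ) % 17 ≠ 1 ∧ (d : ℤ) % 17 ≠ 16 := by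
    rcases he with rfl | rfl | rfl <;> rcases hm with h | h <;> push_cast at h <;> omega
  refine eight_of_list [1, 34, 50, 85, 255, 256, 340, d] ?_ le_rfl ?_
  rotate_left
  · intro d' hd'
    simp only [List.mem_cons, List.not_mem_nil, or_false] at hd'
    rcases hd' with rfl | rfl | rfl | rfl | rfl | rfl | rfl | rfl
    · exact one_mem
    · exact hD'
    · exact hC'
    · exact hF
    · exact hE
    · exact hSt
    · exact hG
    · exact hd
  · simp only [List.nodup_cons, List.mem_cons, List.not_mem_nil, or_false, not_false_iff, List.nodup_nil, and_true]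
    refine ⟨?_, ?_, ?_, ?_, ?_, ?_, ?_⟩ <;> omega

/-- **`PSp₄(q)` has at least eight character degrees for `q ≥ 4`.** -/
theorem eight_sp4 (K : Type u) [Field K] [Finite K] (hq : 4 ≤ Nat.card K) : Eight (PSp 2 K) := by
  by_cases h2 : (2 : K) = 0
  · have hchar : CharP K 2 := CharTwo.of_one_ne_zero_of_two_eq_zero one_ne_zero h2
    let _ := Fintype.ofFinite K
    obtain ⟨s, -, hs⟩ := FiniteField.card K 2
    rw [← Nat.card_eq_fintype_card] at hs
    rcases Nat.lt_or_ge (s : ℕ) 3 with h3 | h3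
    · have h4 : (s : ℕ) = 2 := by
        have h5 : ∀ s : ℕ, s < 3 → 4 ≤ 2 ^ s → s = 2 := by decide
        exact h5 s h3 (by rw [← hs]; exact hq)
      rw [h4] at hs
      exact eight_four K hs
    · exact eight_even K (by
        rw [hs]
        exact (Nat.pow_le_pow_right (by norm_num) h3 : 2 ^ 3 ≤ _)) h2
  · refine eight_odd K ?_ h2
    by_contra h
    have h3 : Nat.card K = 4 := by omega
    have h1 : ((Nat.card K : ℕ) : K) = 0 := by
      let _ := Fintype.ofFinite K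
      rw [Nat.card_eq_fintype_card]
      exact FiniteField.cast_card_eq_zero K
    rw [h3] at h1
    push_cast at h1
    have h4 : (2 : K) * 2 = 0 := by linear_combination h1
    rcases mul_eq_zero.1 h4 with h | h <;> exact h2 h

end Cfsg.Agent.H272.Eight
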